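import Mathlib

/-!
Freeness of a module for a cyclic group `⟨T⟩` normalising a group of prime order `r ≠ char k`
that has no nonzero fixed vector.
-/

set_option autoImplicit false
set_option linter.unusedSectionVars false

namespace Cfsg.Agent.FrobModule

open Polynomial Module

variable {k U : Type*} [Field k] [AddCommGroup U] [Module k U]

theorem aeval_intertwine {V₁ V₂ : Type*} [AddCommGroup V₁] [Module k V₁] [AddCommGroup V₂]
    [Module k V₂] (φ : V₁ →ₗ[k] V₂) (A : Module.End k V₁) (B : Module.End k V₂)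
    (h : ∀ x, φ (A x) = B (φ x)) (g : k[X]) (x : V₁) :
    φ (aeval A g x) = aeval B g (φ x) := by
  induction g using Polynomial.induction_on generalizing x with
  | C c => simp [Module.algebraMap_end_apply]
  | add f g hf hg => simp [map_add, LinearMap.add_apply, hf, hg]
  | monomial n c ih =>
    rw [pow_succ, ← mul_assoc, map_mul, map_mul (aeval B), aeval_X, aeval_X]
    show φ (aeval A (C c * X ^ n) (A x)) = aeval B (C c * X ^ n) (B (φ x))
    rw [ih, h]

theorem aeval_mem {T : Module.End k U} {S : Submodule k U} (hS : ∀ x ∈ S, T x ∈ S) (f : k[X])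
    {x : U} (hx : x ∈ S) : aeval T f x ∈ S := by
  induction f using Polynomial.induction_on generalizing x with
  | C c => simpa [Module.algebraMap_end_apply] using S.smul_mem c hx
  | add f g hf hg => simpa [map_add, LinearMap.add_apply] using S.add_mem (hf hx) (hg hx)
  | monomial n c ih =>
    rw [pow_succ, ← mul_assoc, map_mul, aeval_X]
    exact ih (hS x hx)

/-- The span of the first `d` translates of `W`. -/
def translates (T : Module.End k U) (d : ℕ) (W : Submodule k U) : Submodule k U :=
  ⨆ t : Fin d, W.map (T ^ (t : ℕ))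

theorem translates_invariant {T : Module.End k U} {d : ℕ} (hd : 0 < d) (hT : T ^ d = 1)
    (W : Submodule k U) : ∀ x ∈ translates T d W, T x ∈ translates T d W := by
  intro x hx
  have hle : (translates T d W).map T ≤ translates T d W := by
    rw [translates, Submodule.map_iSup]
    refine iSup_le fun t => ?_
    rw [← Submodule.map_comp, ← Module.End.mul_eq_comp, ← pow_succ']
    by_cases h : (t : ℕ) + 1 < d
    · exact le_iSup (fun i : Fin d => W.map (T ^ (i : ℕ))) ⟨(t : ℕ) + 1, h⟩
    · rw [show (t : ℕ) + 1 = d by omega, hT]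
      have := le_iSup (fun i : Fin d => W.map (T ^ (i : ℕ))) ⟨0, hd⟩
      simpa using this
  exact hle ⟨x, hx, rfl⟩

theorem le_translates {T : Module.End k U} {d : ℕ} (hd : 0 < d) (W : Submodule k U) :
    W ≤ translates T d W := by
  have := le_iSup (fun i : Fin d => W.map (T ^ (i : ℕ))) ⟨0, hd⟩
  simpa [translates, Module.End.one_eq_id, Submodule.map_id] using this

variable [FiniteDimensional k U]

theorem finrank_finset_sup_le {ι : Type*} (s : Finset ι) (S : ι → Submodule k U) :
    finrank k ↥(s.sup S) ≤ ∑ i ∈ s, finrank k (S i) := by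
  classical
  induction s using Finset.induction_on with
  | empty => simp
  | insert a s ha ih =>
    rw [Finset.sup_insert, Finset.sum_insert ha]
    exact (Submodule.finrank_add_le_finrank_add_finrank _ _).trans (Nat.add_le_add_left ih _)

/-- A module spanned by translates of `W` has small kernels. -/
theorem ker_le_of_translates {T : Module.End k U} {d : ℕ} (W : Submodule k U)
    (hW : translates T d W = ⊤) {g : k[X]} (hg : g.Monic) :
    finrank k (LinearMap.ker (aeval T g)) ≤ g.natDegree * finrank k W := by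
  set R := LinearMap.range (aeval T g) with hR
  set S := (Finset.range g.natDegree).sup fun t => W.map (T ^ t) with hS
  have htop : R ⊔ S = ⊤ := by
    rw [eq_top_iff, ← hW, translates, iSup_le_iff]
    rintro t _ ⟨w, hw, rfl⟩
    have h1 : (X : k[X]) ^ (t : ℕ) = X ^ (t : ℕ) %ₘ g + g * (X ^ (t : ℕ) /ₘ g) :=
      (Polynomial.modByMonic_add_div (X ^ (t : ℕ)) g).symm
    have h2 : (T ^ (t : ℕ)) w =
        aeval T (X ^ (t : ℕ) %ₘ g) w + aeval T g (aeval T (X ^ (t : ℕ) /ₘ g) w) := by
      have := congrArg (fun f : k[X] => aeval T f w) h1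
      simpa [map_add, map_mul, LinearMap.add_apply] using this
    rw [h2, add_comm]
    refine Submodule.add_mem_sup ⟨_, rfl⟩ ?_
    rw [aeval_eq_sum_range' (lt_of_lt_of_le (Nat.lt_succ_self _) le_rfl), LinearMap.sum_apply]
    refine Submodule.sum_mem _ fun i hi => ?_
    rw [LinearMap.smul_apply]
    rcases eq_or_ne ((X ^ (t : ℕ) %ₘ g).coeff i) 0 with h0 | h0
    · simp [h0]
    · refine Submodule.smul_mem _ _ ?_
      have hi' : i ∈ Finset.range g.natDegree := by
        rw [Finset.mem_range]
        have h3 : i ≤ (X ^ (t : ℕ) %ₘ g).natDegree := Polynomial.le_natDegree_of_ne_zero h0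
        by_cases hg1 : g = 1
        · exact absurd (by rw [hg1, Polynomial.modByMonic_one, Polynomial.coeff_zero]) h0
        · have := Polynomial.natDegree_modByMonic_lt (X ^ (t : ℕ)) hg hg1
          omega
      exact (Finset.le_sup (f := fun t => W.map (T ^ t)) hi') ⟨w, hw, rfl⟩
  have h4 : finrank k U ≤ finrank k R + finrank k S := by
    have := Submodule.finrank_add_le_finrank_add_finrank R S
    rwa [htop, finrank_top] at this
  have h5 := (aeval T g).finrank_range_add_finrank_ker
  have h6 : finrank k S ≤ g.natDegree * finrank k W := by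
    refine (finrank_finset_sup_le _ _).trans ?_
    refine (Finset.sum_le_sum fun i _ => Submodule.finrank_map_le _ W).trans ?_
    simp
  rw [← hR] at h5
  omega

/-- Generators of the quotient by the image of an irreducible polynomial. -/
theorem exists_gens_irreducible {T : Module.End k U} {g : k[X]} (hg : Irreducible g)
    (hgm : g.Monic) :
    ∃ (m : ℕ) (v : Fin m → U), m * g.natDegree ≤ finrank k (LinearMap.ker (aeval T g)) ∧
      ∀ S : Submodule k U, (∀ x ∈ S, T x ∈ S) → LinearMap.range (aeval T g) ≤ S →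
        (∀ i, v i ∈ S) → S = ⊤ := by
  classical
  have hD : 0 < g.natDegree := hg.natDegree_pos
  set R := LinearMap.range (aeval T g) with hR
  suffices h : ∀ n : ℕ, ∀ S₀ : Submodule k U, (∀ x ∈ S₀, T x ∈ S₀) → R ≤ S₀ →
      finrank k U ≤ finrank k S₀ + n → ∃ (m : ℕ) (v : Fin m → U),
        finrank k S₀ + m * g.natDegree ≤ finrank k U ∧
        ∀ S : Submodule k U, (∀ x ∈ S, T x ∈ S) → S₀ ≤ S → (∀ i, v i ∈ S) → S = ⊤ by
    have hRi : ∀ x ∈ R, T x ∈ R := by
      rintro _ ⟨x, rfl⟩
      exact ⟨T x, (aeval_intertwine T T T (fun _ => rfl) g x).symm⟩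
    obtain ⟨m, v, h1, h2⟩ := h (finrank k U) R hRi le_rfl (Nat.le_add_left _ _)
    refine ⟨m, v, ?_, h2⟩
    have := (aeval T g).finrank_range_add_finrank_ker
    rw [← hR] at this
    omega
  intro n
  induction n with
  | zero =>
    intro S₀ _ _ hn
    have htop : S₀ = ⊤ := Submodule.eq_top_of_finrank_eq
      (le_antisymm (Submodule.finrank_le S₀) (by simpa using hn))
    exact ⟨0, Fin.elim0, by simpa using Submodule.finrank_le S₀,
      fun S _ hle _ => top_le_iff.1 (htop ▸ hle)⟩
  | succ n ih =>
    intro S₀ hinv hR0 hn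
    by_cases htop : S₀ = ⊤
    · exact ⟨0, Fin.elim0, by simpa using Submodule.finrank_le S₀,
        fun S _ hle _ => top_le_iff.1 (htop ▸ hle)⟩
    obtain ⟨v, hv⟩ : ∃ v, v ∉ S₀ := by
      by_contra hc
      push Not at hc
      exact htop (eq_top_iff.2 fun x _ => hc x)
    set P := (Polynomial.degreeLT k g.natDegree) with hP
    let φ : P →ₗ[k] U :=
      ((LinearMap.applyₗ v).comp (aeval T).toLinearMap).comp P.subtype
    have hφ : ∀ f : P, φ f = aeval T (f : k[X]) v := fun f => rfl
    have hinj : ∀ f : P, φ f ∈ S₀ → f = 0 := by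
      intro f hf
      by_contra hf0
      have hf0' : (f : k[X]) ≠ 0 := fun h => hf0 (Subtype.ext h)
      have hdeg : (f : k[X]).natDegree < g.natDegree :=
        (Polynomial.natDegree_lt_iff_degree_lt hf0').2 (Polynomial.mem_degreeLT.1 f.2)
      have hnd : ¬ g ∣ (f : k[X]) := fun h => absurd (Polynomial.natDegree_le_of_dvd h hf0')
        (not_le.2 hdeg)
      obtain ⟨a, b, hab⟩ := (hg.coprime_iff_not_dvd).2 hnd
      refine hv ?_
      have h1 : v = aeval T a (aeval T g v) + aeval T b (aeval T (f : k[X]) v) := by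
        have := congrArg (fun q : k[X] => aeval T q v) hab
        simpa [map_add, map_mul, LinearMap.add_apply] using this.symm
      rw [h1]
      exact S₀.add_mem (aeval_mem hinv a (hR0 ⟨v, rfl⟩)) (aeval_mem hinv b hf)
    set S₁ := S₀ ⊔ LinearMap.range φ with hS₁
    have hS₁f : ∀ f : k[X], aeval T f v ∈ S₁ := by
      intro f
      rw [← Polynomial.modByMonic_add_div f g, map_add, LinearMap.add_apply, map_mul]
      refine S₁.add_mem (Submodule.mem_sup_right ⟨⟨f %ₘ g, ?_⟩, rfl⟩)
        (Submodule.mem_sup_left (hR0 ⟨_, rfl⟩))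
      rw [Polynomial.mem_degreeLT, ← Polynomial.degree_eq_natDegree hgm.ne_zero]
      exact Polynomial.degree_modByMonic_lt f hgm
    have hinv₁ : ∀ x ∈ S₁, T x ∈ S₁ := by
      intro x hx
      obtain ⟨s, hs, _, ⟨f, rfl⟩, rfl⟩ := Submodule.mem_sup.1 hx
      rw [map_add, hφ]
      refine S₁.add_mem (Submodule.mem_sup_left (hinv s hs)) ?_
      have h1 := hS₁f (X * (f : k[X]))
      rwa [map_mul, aeval_X] at h1
    have hφinj : Function.Injective φ := by
      rw [injective_iff_map_eq_zero]
      exact fun f hf => hinj f (hf ▸ S₀.zero_mem)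
    have hrk : finrank k S₁ = finrank k S₀ + g.natDegree := by
      have h1 := Submodule.finrank_sup_add_finrank_inf_eq S₀ (LinearMap.range φ)
      have h2 : S₀ ⊓ LinearMap.range φ = ⊥ := by
        rw [eq_bot_iff]
        rintro _ ⟨hx, f, rfl⟩
        rw [hinj f hx, map_zero]; exact Submodule.zero_mem _
      rw [h2, finrank_bot, LinearMap.finrank_range_of_inj hφinj] at h1
      rw [hS₁, show g.natDegree = finrank k P by
        rw [hP, (Polynomial.degreeLTEquiv k g.natDegree).finrank_eq, Module.finrank_fin_fun]]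
      omega
    obtain ⟨m, w, hm, hw⟩ := ih S₁ hinv₁ (hR0.trans le_sup_left) (by omega)
    refine ⟨m + 1, Fin.cons v w, by rw [add_mul, one_mul]; omega, fun S hS hle hvS => ?_⟩
    refine hw S hS (sup_le hle ?_) (fun i => by simpa using hvS i.succ)
    rintro _ ⟨f, rfl⟩
    exact aeval_mem hS _ (by simpa using hvS 0)

/-- Enough bounds on kernels force freeness. -/
theorem free_of_ker_bound {T : Module.End k U} {d : ℕ} (hd : 0 < d) (hT : T ^ d = 1)
    (hb : ∀ g : k[X], Irreducible g → g.Monic → g ∣ X ^ d - 1 →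
      d * finrank k (LinearMap.ker (aeval T g)) ≤ g.natDegree * finrank k U) :
    ∃ W : Submodule k U, translates T d W = ⊤ ∧ d * finrank k W ≤ finrank k U := by
  classical
  set n := finrank k U / d with hn
  have hne : (X ^ d - 1 : k[X]) ≠ 0 := (Polynomial.monic_X_pow_sub_C (1 : k) hd.ne').ne_zero
  set Fs := UniqueFactorizationMonoid.normalizedFactors (X ^ d - 1 : k[X]) with hFs
  have hFmem : ∀ g ∈ Fs, Irreducible g ∧ g.Monic ∧ g ∣ X ^ d - 1 := fun g hg =>
    ⟨UniqueFactorizationMonoid.irreducible_of_normalized_factor g hg,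
      (Polynomial.normalize_eq_self_iff_monic
        (UniqueFactorizationMonoid.irreducible_of_normalized_factor g hg).ne_zero).1
        (UniqueFactorizationMonoid.normalize_normalized_factor g hg),
      UniqueFactorizationMonoid.dvd_of_mem_normalizedFactors hg⟩
  have hgen : ∀ g : k[X], ∃ v : Fin n → U, g ∈ Fs → ∀ S : Submodule k U,
      (∀ x ∈ S, T x ∈ S) → LinearMap.range (aeval T g) ≤ S → (∀ i, v i ∈ S) → S = ⊤ := by
    intro g
    by_cases hg : g ∈ Fs
    · obtain ⟨hgi, hgm, hgd⟩ := hFmem g hg
      obtain ⟨m, v, hm, hv⟩ := exists_gens_irreducible (T := T) hgi hgm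
      have hmn : m ≤ n := by
        rw [hn, Nat.le_div_iff_mul_le hd]
        refine Nat.le_of_mul_le_mul_right ?_ hgi.natDegree_pos
        calc m * d * g.natDegree = d * (m * g.natDegree) := by ring
          _ ≤ d * finrank k (LinearMap.ker (aeval T g)) := Nat.mul_le_mul_left _ hm
          _ ≤ g.natDegree * finrank k U := hb g hgi hgm hgd
          _ = finrank k U * g.natDegree := mul_comm _ _
      refine ⟨fun i => if h : (i : ℕ) < m then v ⟨i, h⟩ else 0,
        fun _ S h1 h2 h3 => hv S h1 h2 fun i => ?_⟩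
      have := h3 ⟨i, lt_of_lt_of_le i.2 hmn⟩
      simpa using this
    · exact ⟨0, fun h => absurd h hg⟩
  choose v hv using hgen
  have hcop : ∀ g ∈ Fs.toFinset, IsCoprime g (∏ h ∈ Fs.toFinset.erase g, h) := by
    intro g hg
    refine IsCoprime.prod_right fun h hh => ?_
    obtain ⟨hne', hhF⟩ := Finset.mem_erase.1 hh
    obtain ⟨hgi, hgm, -⟩ := hFmem g (Multiset.mem_toFinset.1 hg)
    obtain ⟨hhi, hhm, -⟩ := hFmem h (Multiset.mem_toFinset.1 hhF)
    refine hgi.coprime_iff_not_dvd.2 fun hdvd => hne' ?_
    exact (Polynomial.eq_of_monic_of_associated hgm hhm (hgi.associated_of_dvd hhi hdvd)).symm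
  choose! a b hab using hcop
  set e : k[X] → k[X] := fun g => b g * ∏ h ∈ Fs.toFinset.erase g, h with he
  set u : Fin n → U := fun i => ∑ g ∈ Fs.toFinset, aeval T (e g) (v g i) with hu
  set W := Submodule.span k (Set.range u) with hW
  refine ⟨W, ?_, ?_⟩
  swap
  · have h1 : finrank k W ≤ n := (finrank_range_le_card u).trans_eq (Fintype.card_fin n)
    calc d * finrank k W ≤ d * n := Nat.mul_le_mul_left _ h1
      _ ≤ finrank k U := Nat.mul_div_le _ _
  set S := translates T d W with hS
  have hSi := translates_invariant hd hT W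
  have hsur : ∀ g ∈ Fs, S ⊔ LinearMap.range (aeval T g) = ⊤ := by
    intro g hg
    have hgf : g ∈ Fs.toFinset := Multiset.mem_toFinset.2 hg
    refine hv g hg _ ?_ le_sup_right fun i => ?_
    · intro x hx
      obtain ⟨s, hs, _, ⟨y, rfl⟩, rfl⟩ := Submodule.mem_sup.1 hx
      rw [map_add]
      exact Submodule.add_mem_sup (hSi s hs)
        ⟨T y, (aeval_intertwine T T T (fun _ => rfl) g y).symm⟩
    have hu' : u i ∈ S := le_translates hd W (Submodule.subset_span ⟨i, rfl⟩)
    have h1 : v g i = u i + (aeval T g (aeval T (a g) (v g i)) -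
        ∑ h ∈ Fs.toFinset.erase g, aeval T (e h) (v h i)) := by
      have h2 : v g i = aeval T g (aeval T (a g) (v g i)) + aeval T (e g) (v g i) := by
        have := congrArg (fun q : k[X] => aeval T q (v g i)) (hab g hgf)
        simpa [he, map_add, map_mul, LinearMap.add_apply, mul_comm (a g) g] using this.symm
      rw [hu]
      simp only
      rw [← Finset.add_sum_erase _ _ hgf]
      conv_lhs => rw [h2]
      abel
    rw [h1]
    refine Submodule.add_mem_sup hu' (Submodule.sub_mem _ ⟨_, rfl⟩
      (Submodule.sum_mem _ fun h hh => ?_))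
    obtain ⟨hne', hhF⟩ := Finset.mem_erase.1 hh
    have hdvd : g ∣ e h :=
      dvd_mul_of_dvd_right (Finset.dvd_prod_of_mem _ (Finset.mem_erase.2 ⟨hne'.symm, hgf⟩)) _
    obtain ⟨c, hc⟩ := hdvd
    rw [hc, map_mul]
    exact ⟨_, rfl⟩
  have hprod : ∀ m : Multiset k[X], (∀ g ∈ m, g ∈ Fs) →
      S ⊔ LinearMap.range (aeval T m.prod) = ⊤ := by
    intro m
    induction m using Multiset.induction_on with
    | empty =>
      intro _
      refine eq_top_iff.2 fun x _ => Submodule.mem_sup_right ⟨x, ?_⟩
      simp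
    | cons g m ih =>
      intro hm
      rw [eq_top_iff, ← hsur g (hm g (Multiset.mem_cons_self g m))]
      refine sup_le le_sup_left ?_
      rintro _ ⟨x, rfl⟩
      obtain ⟨s, hs, _, ⟨y, rfl⟩, rfl⟩ := Submodule.mem_sup.1
        ((ih fun q hq => hm q (Multiset.mem_cons_of_mem hq)).ge (Submodule.mem_top : x ∈ ⊤))
      rw [map_add]
      refine Submodule.add_mem_sup (aeval_mem hSi g hs) ⟨y, ?_⟩
      rw [Multiset.prod_cons, map_mul]; rfl
  have h0 : aeval T (X ^ d - 1 : k[X]) = 0 := by simp [hT]
  obtain ⟨c, hc⟩ := UniqueFactorizationMonoid.prod_normalizedFactors hne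
  rw [← hFs] at hc
  have h1 := hprod Fs fun g hg => hg
  have h2 : aeval T Fs.prod = 0 := by
    rw [← Units.mul_inv_cancel_right Fs.prod c, hc, map_mul, h0, zero_mul]
  rw [h2, LinearMap.range_zero, sup_bot_eq] at h1
  exact h1

/-- Powers of an element of exponent `r`, indexed by `ZMod r`. -/
theorem pow_val_mul {r : ℕ} [NeZero r] {M : Type*} [Monoid M] {z : M} (hz : z ^ r = 1)
    (i j : ZMod r) : z ^ i.val * z ^ j.val = z ^ (i + j).val := by
  rw [← pow_add, ZMod.val_add]
  exact pow_eq_pow_mod (i.val + j.val) hz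

theorem cyclic_free {r : ℕ} [hr : Fact r.Prime] (hrk : (r : k) ≠ 0) (z T : Module.End k U)
    (hz : z ^ r = 1) (hfix : ∀ u, z u = u → u = 0) (a : (ZMod r)ˣ)
    (hT : T ^ orderOf a = 1) (hcomm : T * z = z ^ (a : ZMod r).val * T) :
    ∃ W : Submodule k U, translates T (orderOf a) W = ⊤ ∧
      orderOf a * finrank k W ≤ finrank k U := by
  classical
  set d := orderOf a with hd
  have hd0 : 0 < d := orderOf_pos a
  refine free_of_ker_bound hd0 hT fun g _ hgm _ => ?_
  have hcomm' : ∀ (i : ZMod r) u, T ((z ^ i.val) u) = (z ^ ((a : ZMod r) * i).val) (T u) := by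
    intro i
    have key : ∀ m : ℕ, T * z ^ m = z ^ ((a : ZMod r) * (m : ZMod r)).val * T := by
      intro m
      induction m with
      | zero => simp
      | succ m ih =>
        rw [pow_succ, ← mul_assoc, ih, mul_assoc, hcomm, ← mul_assoc, pow_val_mul hz]
        congr 3
        push_cast
        ring
    intro u
    have h := LinearMap.congr_fun (key i.val) u
    rw [ZMod.natCast_zmod_val] at h
    exact h
  have hsum : ∀ m : ZMod r, m ≠ 0 → ∑ i : ZMod r, z ^ (i * m).val = 0 := by
    intro m hm
    have hperm : ∑ i : ZMod r, z ^ (i * m).val = ∑ i : ZMod r, z ^ i.val :=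
      Fintype.sum_equiv (Equiv.mulRight₀ m hm) _ _ fun i => rfl
    rw [hperm]
    refine LinearMap.ext fun u => hfix _ ?_
    have h1 : z * (∑ i : ZMod r, z ^ i.val) = ∑ i : ZMod r, z ^ i.val := by
      rw [Finset.mul_sum]
      refine Fintype.sum_equiv (Equiv.addLeft 1) _ _ fun i => ?_
      have := pow_val_mul hz 1 i
      rw [ZMod.val_one, pow_one] at this
      exact this
    exact LinearMap.congr_fun h1 u
  let T' : Module.End k ((ZMod r)ˣ → U) :=
    { toFun := fun f i => T (f (a⁻¹ * i))
      map_add' := fun f g => funext fun i => map_add T _ _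
      map_smul' := fun c f => funext fun i => map_smul T c _ }
  let Tp : Module.End k (ZMod r → U) :=
    { toFun := fun f i => T (f i)
      map_add' := fun f g => funext fun i => map_add T _ _
      map_smul' := fun c f => funext fun i => map_smul T c _ }
  let ψ : U × ((ZMod r)ˣ → U) →ₗ[k] (ZMod r → U) :=
    { toFun := fun p j => p.1 + ∑ i : (ZMod r)ˣ, (z ^ ((i : ZMod r) * j).val) (p.2 i)
      map_add' := fun p q => funext fun j => by
        simp only [Prod.fst_add, Prod.snd_add, Pi.add_apply, map_add, Finset.sum_add_distrib]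
        abel
      map_smul' := fun c p => funext fun j => by
        simp [Finset.smul_sum, smul_add] }
  have hψ : ∀ p, ψ (T.prodMap T' p) = Tp (ψ p) := by
    rintro ⟨u, f⟩
    refine funext fun j => ?_
    show T u + ∑ i : (ZMod r)ˣ, (z ^ ((i : ZMod r) * j).val) (T (f (a⁻¹ * i))) =
      T (u + ∑ i : (ZMod r)ˣ, (z ^ ((i : ZMod r) * j).val) (f i))
    rw [map_add, map_sum]
    congr 1
    symm
    refine Fintype.sum_equiv (Equiv.mulLeft a) _ _ fun i => ?_
    rw [hcomm']
    simp [mul_assoc]
  have hsurj : Function.Surjective ψ := by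
    intro w
    refine ⟨⟨(r : k)⁻¹ • ∑ l : ZMod r, w l,
      fun i => (r : k)⁻¹ • ∑ l : ZMod r, (z ^ (-((i : ZMod r) * l)).val) (w l)⟩, funext fun j => ?_⟩
    show (r : k)⁻¹ • (∑ l : ZMod r, w l) + ∑ i : (ZMod r)ˣ, (z ^ ((i : ZMod r) * j).val)
      ((r : k)⁻¹ • ∑ l : ZMod r, (z ^ (-((i : ZMod r) * l)).val) (w l)) = w j
    simp only [map_smul, map_sum]
    rw [← Finset.smul_sum, ← smul_add, inv_smul_eq_iff₀ hrk, Finset.sum_comm,
      ← Finset.sum_add_distrib]
    have hterm : ∀ l : ZMod r, w l + ∑ i : (ZMod r)ˣ, (z ^ ((i : ZMod r) * j).val)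
        ((z ^ (-((i : ZMod r) * l)).val) (w l)) = (∑ i : ZMod r, z ^ (i * (j - l)).val) (w l) := by
      intro l
      rw [LinearMap.sum_apply, ← Finset.add_sum_erase _ _ (Finset.mem_univ (0 : ZMod r))]
      congr 1
      · simp
      · refine Finset.sum_bij' (fun i _ => (i : ZMod r))
          (fun i hi => Units.mk0 i (Finset.ne_of_mem_erase hi)) (fun i _ => by simp)
          (fun i _ => Finset.mem_univ _) (fun i _ => Units.ext rfl) (fun i _ => rfl) fun i _ => ?_
        rw [← Module.End.mul_apply, pow_val_mul hz, mul_sub, sub_eq_add_neg]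
    rw [Finset.sum_congr rfl fun l _ => hterm l, Finset.sum_eq_single j]
    · simp [sub_self, ZMod.val_zero, Nat.cast_smul_eq_nsmul]
    · intro l _ hl
      rw [hsum (j - l) (sub_ne_zero.2 (Ne.symm hl))]
      rfl
    · simp
  have hcard : Fintype.card (ZMod r)ˣ = r - 1 := ZMod.card_units r
  have hr1 : 1 ≤ r := hr.1.one_lt.le
  have hrU : r * finrank k U = finrank k U + (r - 1) * finrank k U := by
    conv_lhs => rw [show r = 1 + (r - 1) by omega]
    rw [add_mul, one_mul]
  have hdim : finrank k (U × ((ZMod r)ˣ → U)) = finrank k (ZMod r → U) := by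
    rw [Module.finrank_prod, Module.finrank_pi_fintype, Module.finrank_pi_fintype,
      Finset.sum_const, Finset.sum_const, Finset.card_univ, Finset.card_univ, hcard, ZMod.card,
      smul_eq_mul, smul_eq_mul, hrU]
  have hbij : Function.Bijective ψ :=
    ⟨(LinearMap.injective_iff_surjective_of_finrank_eq_finrank hdim).2 hsurj, hsurj⟩
  let Ψ := LinearEquiv.ofBijective ψ hbij
  -- generators of the permuted part
  let Q := (ZMod r)ˣ ⧸ Subgroup.zpowers a
  haveI : Fintype Q := Fintype.ofFinite Q
  let ι : (Q → U) →ₗ[k] ((ZMod r)ˣ → U) :=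
    { toFun := fun f i => if (QuotientGroup.mk i : Q).out = i then f (QuotientGroup.mk i) else 0
      map_add' := fun f g => funext fun i => by by_cases h : (QuotientGroup.mk i : Q).out = i <;> simp [h]
      map_smul' := fun c f => funext fun i => by by_cases h : (QuotientGroup.mk i : Q).out = i <;> simp [h] }
  have hT' : ∀ (t : ℕ) (f : (ZMod r)ˣ → U) (i : (ZMod r)ˣ),
      (T' ^ t) f i = (T ^ t) (f (a⁻¹ ^ t * i)) := by
    intro t
    induction t with
    | zero => simp
    | succ t ih =>
      intro f i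
      rw [pow_succ', Module.End.mul_apply, pow_succ' T, Module.End.mul_apply]
      show T ((T' ^ t) f (a⁻¹ * i)) = _
      rw [ih, pow_succ, mul_assoc]
  have hspan : translates T' d (LinearMap.range ι) = ⊤ := by
    rw [eq_top_iff]
    intro f _
    rw [← Finset.univ_sum_single f]
    refine Submodule.sum_mem _ fun i _ => ?_
    have hmem : (QuotientGroup.mk i : Q).out⁻¹ * i ∈ Subgroup.zpowers a :=
      QuotientGroup.eq.1 (Quotient.out_eq _)
    obtain ⟨t, ht, hti⟩ : ∃ t : ℕ, t < d ∧ a ^ t = (QuotientGroup.mk i : Q).out⁻¹ * i := by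
      rw [Subgroup.mem_zpowers_iff] at hmem
      obtain ⟨s, hs⟩ := hmem
      have h0 : (0 : ℤ) < d := by exact_mod_cast hd0
      refine ⟨(s % d).toNat, ?_, ?_⟩
      · have := Int.emod_lt_of_pos s h0
        omega
      · rw [← zpow_natCast, Int.toNat_of_nonneg (Int.emod_nonneg s h0.ne'), hd, zpow_mod_orderOf,
          hs]
    set ω := (QuotientGroup.mk i : Q).out with hω
    refine Submodule.mem_iSup_of_mem ⟨t, ht⟩ ?_
    refine ⟨ι (Pi.single (QuotientGroup.mk i) ((T ^ (d - t)) (f i))), ⟨_, rfl⟩, ?_⟩
    funext j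
    rw [hT']
    show (T ^ t) (if (QuotientGroup.mk (a⁻¹ ^ t * j) : Q).out = a⁻¹ ^ t * j then
      (Pi.single (QuotientGroup.mk i) ((T ^ (d - t)) (f i)) : Q → U)
        (QuotientGroup.mk (a⁻¹ ^ t * j)) else 0) = _
    by_cases hj : j = i
    · subst hj
      have he : a⁻¹ ^ t * j = ω := by
        rw [inv_pow, hti, mul_inv_rev, inv_inv, mul_comm (j⁻¹) ω, mul_assoc, inv_mul_cancel,
          mul_one]
      rw [he, hω, QuotientGroup.out_eq' (QuotientGroup.mk j : Q)]
      simp only [if_true, Pi.single_eq_same]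
      rw [← Module.End.mul_apply, ← pow_add, Nat.add_sub_cancel' ht.le, hd, hT,
        Module.End.one_apply]
    · rw [Pi.single_eq_of_ne hj]
      split_ifs with h1
      · rw [Pi.single_eq_of_ne, map_zero]
        intro h2
        refine hj ?_
        rw [h2, ← hω] at h1
        have hωe : ω = a⁻¹ ^ t * i := by
          rw [inv_pow, hti, mul_inv_rev, inv_inv, mul_comm (i⁻¹) ω, mul_assoc, inv_mul_cancel,
            mul_one]
        rw [hωe] at h1
        exact (mul_left_cancel h1).symm
      · rw [map_zero]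
  have hcount := ker_le_of_translates (U := (ZMod r)ˣ → U) _ hspan hgm
  have hι : finrank k (LinearMap.range ι) ≤ Nat.card Q * finrank k U := by
    refine (LinearMap.finrank_range_le ι).trans ?_
    rw [Module.finrank_pi_fintype, Finset.sum_const, Finset.card_univ, Nat.card_eq_fintype_card,
      smul_eq_mul]
  have hQ : Nat.card Q * d = r - 1 := by
    rw [hd, ← Nat.card_zpowers, ← Subgroup.card_eq_card_quotient_mul_card_subgroup,
      Nat.card_eq_fintype_card, hcard]
  -- kernels
  set K := LinearMap.ker (aeval T g) with hK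
  set K' := LinearMap.ker (aeval T' g) with hK'
  have hpi : ∀ (f : ZMod r → U) (i : ZMod r), aeval Tp g f i = aeval T g (f i) := fun f i =>
    aeval_intertwine (LinearMap.proj i) Tp T (fun _ => rfl) g f
  have hfst : ∀ p, (aeval (T.prodMap T') g p).1 = aeval T g p.1 := fun p =>
    aeval_intertwine (LinearMap.fst k U _) (T.prodMap T') T (fun _ => rfl) g p
  have hsnd : ∀ p, (aeval (T.prodMap T') g p).2 = aeval T' g p.2 := fun p =>
    aeval_intertwine (LinearMap.snd k U _) (T.prodMap T') T' (fun _ => rfl) g p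
  have hker : r * finrank k K ≤ finrank k K + finrank k K' := by
    let θ : (ZMod r → K) →ₗ[k] (U × ((ZMod r)ˣ → U)) :=
      Ψ.symm.toLinearMap.comp ((K.subtype).compLeft (ZMod r))
    have hθ : ∀ f, θ f ∈ LinearMap.ker (aeval (T.prodMap T') g) := fun f => by
      rw [LinearMap.mem_ker]
      refine Ψ.injective ?_
      rw [map_zero]
      show ψ _ = 0
      rw [aeval_intertwine ψ _ _ hψ g]
      have : ψ (θ f) = fun i => (f i : U) := Ψ.apply_symm_apply _
      rw [this]
      funext i
      rw [hpi]
      exact (f i).2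
    have h1 : ∀ f, θ f ∈ K.prod K' := fun f => by
      have h := LinearMap.mem_ker.1 (hθ f)
      exact ⟨show aeval T g (θ f).1 = 0 by rw [← hfst, h]; rfl,
        show aeval T' g (θ f).2 = 0 by rw [← hsnd, h]; rfl⟩
    have h2 := LinearMap.finrank_le_finrank_of_injective
      (f := (((LinearMap.fst k U _).comp θ).codRestrict K fun f => (h1 f).1).prod
        (((LinearMap.snd k U _).comp θ).codRestrict K' fun f => (h1 f).2))
      (fun f f' h => by
        have h' := Ψ.symm.injective (Prod.ext (congrArg Subtype.val (congrArg Prod.fst h))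
          (congrArg Subtype.val (congrArg Prod.snd h)) : θ f = θ f')
        exact funext fun i => Subtype.ext (congrFun h' i))
    rw [Module.finrank_pi_fintype, Finset.sum_const, Finset.card_univ, ZMod.card, smul_eq_mul,
      Module.finrank_prod] at h2
    exact h2
  refine Nat.le_of_mul_le_mul_left ?_ (show 0 < r - 1 by have := hr.1.two_le; omega)
  calc (r - 1) * (d * finrank k K) = d * ((r - 1) * finrank k K) := by ring
    _ ≤ d * finrank k K' := Nat.mul_le_mul_left _ (by
        have : r * finrank k K = finrank k K + (r - 1) * finrank k K := by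
          conv_lhs => rw [show r = 1 + (r - 1) by omega]
          rw [add_mul, one_mul]
        omega)
    _ ≤ d * (g.natDegree * (Nat.card Q * finrank k U)) :=
        Nat.mul_le_mul_left _ (hcount.trans (Nat.mul_le_mul_left _ hι))
    _ = (r - 1) * (g.natDegree * finrank k U) := by rw [← hQ]; ring

end Cfsg.Agent.FrobModule
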