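import Cfsg.Agent.FrobModule.Cyclic
import Mathlib

/-!
Decomposition of a module along an elementary abelian normal section: the common fixed space and
the fixed spaces of the maximal subgroups.
-/

set_option autoImplicit false
set_option linter.unusedSectionVars false

namespace Cfsg.Agent.FrobModule

open Module
open scoped Pointwise

variable {k V A : Type*} [Field k] [AddCommGroup V] [Module k V] [Group A]

/-- `Z` acts as an elementary abelian `r`-group, `r` invertible. -/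
structure Setting (ρ : Representation k A V) (Z : Subgroup A) (r : ℕ) : Prop where
  ne_zero : (r : k) ≠ 0
  pow_eq : ∀ z ∈ Z, ρ z ^ r = 1
  comm : ∀ z ∈ Z, ∀ w ∈ Z, Commute (ρ z) (ρ w)

theorem rho_mul (ρ : Representation k A V) (a b : A) (v : V) : ρ (a * b) v = ρ a (ρ b v) := by
  rw [map_mul, Module.End.mul_apply]

theorem rho_injective (ρ : Representation k A V) (a : A) : Function.Injective (ρ a) := by
  intro u v h
  have := congrArg (ρ a⁻¹) h
  rwa [← rho_mul, ← rho_mul, inv_mul_cancel, map_one, Module.End.one_apply,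
    Module.End.one_apply] at this

/-- Common fixed space of a subgroup. -/
def fixSpace (ρ : Representation k A V) (X : Subgroup A) : Submodule k V where
  carrier := {v | ∀ x ∈ X, ρ x v = v}
  add_mem' {u v} hu hv x hx := by rw [map_add, hu x hx, hv x hx]
  zero_mem' x _ := map_zero _
  smul_mem' c {v} hv x hx := by rw [map_smul, hv x hx]

theorem mem_fixSpace {ρ : Representation k A V} {X : Subgroup A} {v : V} :
    v ∈ fixSpace ρ X ↔ ∀ x ∈ X, ρ x v = v := Iff.rfl

/-- Elements fixing a given vector. -/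
def fixer (ρ : Representation k A V) (v : V) : Subgroup A where
  carrier := {x | ρ x v = v}
  one_mem' := by simp
  mul_mem' {a b} (ha : ρ a v = v) (hb : ρ b v = v) := show ρ (a * b) v = v by rw [rho_mul, hb, ha]
  inv_mem' {a} (ha : ρ a v = v) := show ρ a⁻¹ v = v by
    conv_lhs => rw [← ha]
    rw [← rho_mul, inv_mul_cancel, map_one, Module.End.one_apply]

theorem mem_fixSpace_sup {ρ : Representation k A V} {X : Subgroup A} {z : A} {v : V}
    (hv : v ∈ fixSpace ρ X) (hz : ρ z v = v) :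
    v ∈ fixSpace ρ (X ⊔ Subgroup.zpowers z) := fun x hx =>
  (sup_le (fun y hy => hv y hy) ((Subgroup.zpowers_le (H := fixer ρ v)).2 hz) :
    X ⊔ Subgroup.zpowers z ≤ fixer ρ v) hx

/-- The sum of the powers of `ρ z`. -/
noncomputable def powSum (ρ : Representation k A V) (r : ℕ) [NeZero r] (z : A) :
    Module.End k V :=
  ∑ i : ZMod r, ρ z ^ i.val

variable {ρ : Representation k A V} {Z : Subgroup A} {r : ℕ} [hr : Fact r.Prime]

theorem powSum_apply (z : A) (v : V) :
    powSum ρ r z v = ∑ i : ZMod r, (ρ z ^ i.val) v := by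
  rw [powSum, LinearMap.sum_apply]

theorem mul_powSum (h : Setting ρ Z r) {z : A} (hz : z ∈ Z) :
    ρ z * powSum ρ r z = powSum ρ r z := by
  rw [powSum, Finset.mul_sum]
  refine Fintype.sum_equiv (Equiv.addLeft (1 : ZMod r)) _ _ fun i => ?_
  have := pow_val_mul (h.pow_eq z hz) (1 : ZMod r) i
  rw [ZMod.val_one, pow_one] at this
  exact this

theorem powSum_of_fix {z : A} {v : V} (hv : ρ z v = v) : powSum ρ r z v = (r : k) • v := by
  have h1 : ∀ n : ℕ, (ρ z ^ n) v = v := by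
    intro n
    induction n with
    | zero => simp
    | succ n ih => rw [pow_succ, Module.End.mul_apply, hv, ih]
  rw [powSum_apply, Finset.sum_congr rfl fun i _ => h1 _, Finset.sum_const, Finset.card_univ,
    ZMod.card, Nat.cast_smul_eq_nsmul]

theorem powSum_comm (h : Setting ρ Z r) {z w : A} (hz : z ∈ Z) (hw : w ∈ Z) :
    Commute (powSum ρ r z) (ρ w) :=
  Commute.sum_left _ _ _ fun i _ => (h.comm z hz w hw).pow_left _

theorem powSum_fixed (h : Setting ρ Z r) {z : A} (hz : z ∈ Z) (v : V) :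
    ρ z (powSum ρ r z v) = powSum ρ r z v := LinearMap.congr_fun (mul_powSum h hz) v

theorem powSum_mem_fixSpace (h : Setting ρ Z r) {X : Subgroup A} (hX : X ≤ Z) {z : A}
    (hz : z ∈ Z) {v : V} (hv : v ∈ fixSpace ρ X) :
    powSum ρ r z v ∈ fixSpace ρ X := fun x hx => by
  rw [← Module.End.mul_apply, ← (powSum_comm h hz (hX hx)).eq, Module.End.mul_apply, hv x hx]

theorem rho_mem_fixSpace (h : Setting ρ Z r) {X : Subgroup A} (hX : X ≤ Z) {z : A}
    (hz : z ∈ Z) {v : V} (hv : v ∈ fixSpace ρ X) : ρ z v ∈ fixSpace ρ X := fun x hx => by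
  rw [← Module.End.mul_apply, (h.comm x (hX hx) z hz).eq, Module.End.mul_apply, hv x hx]

/-- Maximal proper subgroups of `Z`. -/
def IsMaxIn (Z M : Subgroup A) : Prop :=
  M ≤ Z ∧ M ≠ Z ∧ ∀ z ∈ Z, z ∉ M → M ⊔ Subgroup.zpowers z = Z

/-- Vectors fixed by `M` and killed by the power sums of the other elements of `Z`. -/
def eigen (ρ : Representation k A V) (Z : Subgroup A) (r : ℕ) [NeZero r] (M : Subgroup A) :
    Submodule k V where
  carrier := {v | (∀ x ∈ M, ρ x v = v) ∧ ∀ z ∈ Z, z ∉ M → powSum ρ r z v = 0}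
  add_mem' {u v} hu hv :=
    ⟨fun x hx => by rw [map_add, hu.1 x hx, hv.1 x hx],
     fun z hz hzM => by rw [map_add, hu.2 z hz hzM, hv.2 z hz hzM, add_zero]⟩
  zero_mem' := ⟨fun x _ => map_zero _, fun z _ _ => map_zero _⟩
  smul_mem' c {v} hv :=
    ⟨fun x hx => by rw [map_smul, hv.1 x hx],
     fun z hz hzM => by rw [map_smul, hv.2 z hz hzM, smul_zero]⟩

theorem rho_mem_eigen (h : Setting ρ Z r) {M : Subgroup A} (hM : M ≤ Z) {z : A} (hz : z ∈ Z)
    {v : V} (hv : v ∈ eigen ρ Z r M) : ρ z v ∈ eigen ρ Z r M :=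
  ⟨rho_mem_fixSpace h hM hz hv.1, fun w hw hwM => by
    rw [← Module.End.mul_apply, (powSum_comm h hw hz).eq, Module.End.mul_apply, hv.2 w hw hwM,
      map_zero]⟩

theorem eigen_fix_zero (h : Setting ρ Z r) {M : Subgroup A} (hM : IsMaxIn Z M) {v : V}
    (hv : v ∈ eigen ρ Z r M) (hfix : v ∈ fixSpace ρ Z) : v = 0 := by
  obtain ⟨hle, hne, -⟩ := hM
  obtain ⟨z, hz, hzM⟩ := SetLike.exists_of_lt (lt_of_le_of_ne hle hne)
  have h1 := hv.2 z hz hzM
  rw [powSum_of_fix (hfix z hz)] at h1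
  exact (smul_eq_zero.1 h1).resolve_left h.ne_zero

/-- An element of `Z` fixing a nonzero vector of `eigen M` lies in `M`. -/
theorem mem_of_fix_eigen (h : Setting ρ Z r) {M : Subgroup A} (hM : IsMaxIn Z M) {z : A}
    (hz : z ∈ Z) {v : V} (hv : v ∈ eigen ρ Z r M) (hv0 : v ≠ 0) (hfix : ρ z v = v) : z ∈ M := by
  by_contra hzM
  refine hv0 (eigen_fix_zero h hM hv ?_)
  rw [← hM.2.2 z hz hzM]
  exact mem_fixSpace_sup hv.1 hfix

theorem fixSpace_max_le (h : Setting ρ Z r) {M : Subgroup A} (hM : IsMaxIn Z M) :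
    fixSpace ρ M ≤ fixSpace ρ Z ⊔ eigen ρ Z r M := by
  intro u hu
  obtain ⟨z, hz, hzM⟩ := SetLike.exists_of_lt (lt_of_le_of_ne hM.1 hM.2.1)
  have hfixS : ∀ y ∈ Z, y ∉ M → powSum ρ r y u ∈ fixSpace ρ Z := fun y hy hyM => by
    rw [← hM.2.2 y hy hyM]
    exact mem_fixSpace_sup (powSum_mem_fixSpace h hM.1 hy hu) (powSum_fixed h hy u)
  have key : ∀ y ∈ Z, y ∉ M → powSum ρ r y u = powSum ρ r z u := by
    intro y hy hyM
    have h1 := powSum_of_fix (r := r) (hfixS y hy hyM z hz)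
    have h2 := powSum_of_fix (r := r) (hfixS z hz hzM y hy)
    have hc : Commute (powSum ρ r z) (powSum ρ r y) :=
      Commute.sum_right _ _ _ fun i _ => (powSum_comm h hz hy).pow_right _
    have h3 : powSum ρ r z (powSum ρ r y u) = powSum ρ r y (powSum ρ r z u) :=
      LinearMap.congr_fun hc.eq u
    rw [h1, h2] at h3
    exact smul_right_injective V h.ne_zero h3
  have h1 : u = (r : k)⁻¹ • powSum ρ r z u + (u - (r : k)⁻¹ • powSum ρ r z u) := by abel
  rw [h1]
  refine Submodule.add_mem_sup (Submodule.smul_mem _ _ (hfixS z hz hzM)) ⟨?_, ?_⟩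
  · exact (fixSpace ρ M).sub_mem hu
      (Submodule.smul_mem _ _ (powSum_mem_fixSpace h hM.1 hz hu))
  · intro y hy hyM
    rw [map_sub, map_smul, powSum_of_fix (hfixS z hz hzM y hy), key y hy hyM,
      inv_smul_smul₀ h.ne_zero, sub_self]

theorem sum_powSum (h : Setting ρ Z r) {a b : A} (ha : a ∈ Z) (hb : b ∈ Z) :
    (∑ j : ZMod r, powSum ρ r (b * a ^ j.val)) + powSum ρ r a - powSum ρ r b * powSum ρ r a =
      (r : k) • (1 : Module.End k V) := by
  classical
  simp only [powSum]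
  rw [Finset.sum_comm, Finset.sum_mul,
    ← Finset.add_sum_erase _ _ (Finset.mem_univ (0 : ZMod r)),
    ← Finset.add_sum_erase _ (fun i : ZMod r => ρ b ^ i.val * _) (Finset.mem_univ (0 : ZMod r))]
  have h0 : ∑ j : ZMod r, ρ (b * a ^ j.val) ^ (0 : ZMod r).val = (r : k) • (1 : Module.End k V) := by
    rw [ZMod.val_zero, Finset.sum_congr rfl fun j _ => pow_zero _, Finset.sum_const,
      Finset.card_univ, ZMod.card, Nat.cast_smul_eq_nsmul]
  have h1 : ∀ i ∈ Finset.univ.erase (0 : ZMod r), ∑ j : ZMod r, ρ (b * a ^ j.val) ^ i.val =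
      ρ b ^ i.val * ∑ j : ZMod r, ρ a ^ j.val := by
    intro i hi
    have hi0 : i ≠ 0 := Finset.ne_of_mem_erase hi
    rw [Finset.mul_sum]
    refine Fintype.sum_equiv (Equiv.mulLeft₀ i hi0) _ _ fun j => ?_
    show ρ (b * a ^ j.val) ^ i.val = ρ b ^ i.val * ρ a ^ (i * j).val
    rw [map_mul, map_pow, ((h.comm b hb a ha).pow_right _).mul_pow, ← pow_mul, ZMod.val_mul,
      ← pow_eq_pow_mod _ (h.pow_eq a ha), mul_comm j.val]
  rw [Finset.sum_congr rfl h1, h0, ZMod.val_zero, pow_zero, one_mul]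
  abel

/-- The fixed space of `Z` and the eigenspaces span. -/
theorem fixSpace_le_sup [Finite A] (h : Setting ρ Z r) :
    ∀ X : Subgroup A, X ≤ Z → fixSpace ρ X ≤
      fixSpace ρ Z ⊔ ⨆ (M : Subgroup A) (_ : IsMaxIn Z M), eigen ρ Z r M := by
  intro X
  induction X using (inferInstance : WellFoundedGT (Subgroup A)).wf.induction with
  | h X ih =>
    intro hX
    by_cases hXZ : X = Z
    · subst hXZ; exact le_sup_left
    by_cases hmax : ∀ z ∈ Z, z ∉ X → X ⊔ Subgroup.zpowers z = Z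
    · have hm : IsMaxIn Z X := ⟨hX, hXZ, hmax⟩
      have h1 : eigen ρ Z r X ≤ ⨆ (M : Subgroup A) (_ : IsMaxIn Z M), eigen ρ Z r M :=
        le_iSup₂ (f := fun M (_ : IsMaxIn Z M) => eigen ρ Z r M) X hm
      exact le_trans (fixSpace_max_le h hm) (sup_le_sup le_rfl h1)
    push Not at hmax
    obtain ⟨z₁, hz₁, hz₁X, hne⟩ := hmax
    have hle₁ : X ⊔ Subgroup.zpowers z₁ ≤ Z := sup_le hX (Subgroup.zpowers_le.2 hz₁)
    obtain ⟨z₂, hz₂, hz₂X⟩ := SetLike.exists_of_lt (lt_of_le_of_ne hle₁ hne)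
    intro u hu
    have hstep : ∀ w ∈ Z, w ∉ X → ∀ v ∈ fixSpace ρ X, powSum ρ r w v ∈
        fixSpace ρ Z ⊔ ⨆ (M : Subgroup A) (_ : IsMaxIn Z M), eigen ρ Z r M := by
      intro w hw hwX v hv
      refine ih (X ⊔ Subgroup.zpowers w) (lt_of_le_of_ne le_sup_left fun e => hwX ?_)
        (sup_le hX (Subgroup.zpowers_le.2 hw))
        (mem_fixSpace_sup (powSum_mem_fixSpace h hX hw hv) (powSum_fixed h hw v))
      rw [e]; exact Subgroup.mem_sup_right (Subgroup.mem_zpowers w)
    have hid := LinearMap.congr_fun (sum_powSum h hz₁ hz₂) u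
    rw [LinearMap.sub_apply, LinearMap.add_apply, LinearMap.smul_apply, LinearMap.sum_apply,
      Module.End.one_apply] at hid
    rw [← inv_smul_smul₀ h.ne_zero u, ← hid]
    refine Submodule.smul_mem _ _ (Submodule.sub_mem _ (Submodule.add_mem _
      (Submodule.sum_mem _ fun j _ => ?_) (hstep z₁ hz₁ hz₁X u hu)) ?_)
    · refine hstep _ (mul_mem hz₂ (pow_mem hz₁ _)) (fun hmem => hz₂X ?_) u hu
      have := (X ⊔ Subgroup.zpowers z₁).mul_mem (Subgroup.mem_sup_left hmem)
        (Subgroup.mem_sup_right (inv_mem (pow_mem (Subgroup.mem_zpowers z₁) j.val)))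
      rwa [mul_inv_cancel_right] at this
    · rw [Module.End.mul_apply]
      exact hstep z₂ hz₂ (fun hmem => hz₂X (Subgroup.mem_sup_left hmem)) _
        (powSum_mem_fixSpace h hX hz₁ hu)

/-- The eigenspaces and the fixed space are independent. -/
theorem eigen_inf_sup (h : Setting ρ Z r) : ∀ s : Finset (Subgroup A),
    (∀ M ∈ s, IsMaxIn Z M) → ∀ M, IsMaxIn Z M → M ∉ s →
      eigen ρ Z r M ⊓ (fixSpace ρ Z ⊔ s.sup (eigen ρ Z r)) = ⊥ := by
  classical
  intro s
  induction s using Finset.induction_on with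
  | empty =>
    intro _ M hM _
    rw [eq_bot_iff]
    rintro v ⟨hv, hv'⟩
    simp only [Finset.sup_empty, sup_bot_eq, SetLike.mem_coe] at hv'
    exact eigen_fix_zero h hM hv hv'
  | insert M' s hM's ih =>
    intro hs M hM hMs
    have hM' := hs M' (Finset.mem_insert_self _ _)
    have hs' : ∀ X ∈ s, IsMaxIn Z X := fun X hX => hs X (Finset.mem_insert_of_mem hX)
    obtain ⟨hne, hMs'⟩ : M ≠ M' ∧ M ∉ s := by
      simpa [Finset.mem_insert] using hMs
    rw [eq_bot_iff]
    rintro v ⟨hv, hv'⟩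
    rw [SetLike.mem_coe, Finset.sup_insert, sup_left_comm] at hv'
    obtain ⟨a, ha, b, hb, rfl⟩ := Submodule.mem_sup.1 hv'
    obtain ⟨y, hy, hyM⟩ : ∃ y ∈ M', y ∉ M := by
      by_contra hc
      push Not at hc
      obtain ⟨z, hz, hzM'⟩ := SetLike.exists_of_lt (lt_of_le_of_ne hc (Ne.symm hne))
      refine hM.2.1 (le_antisymm hM.1 ?_)
      rw [← hM'.2.2 z (hM.1 hz) hzM']
      exact sup_le hc (Subgroup.zpowers_le.2 hz)
    have hyZ := hM'.1 hy
    obtain ⟨c, hc, t, ht, rfl⟩ := Submodule.mem_sup.1 hb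
    set v := a + (c + t) with hvdef
    have hS : ∀ x ∈ s.sup (eigen ρ Z r), ρ y x ∈ s.sup (eigen ρ Z r) := by
      have hle : s.sup (eigen ρ Z r) ≤ (s.sup (eigen ρ Z r)).comap (ρ y) :=
        Finset.sup_le fun X hX x hx =>
          (Finset.le_sup (f := eigen ρ Z r) hX) (rho_mem_eigen h (hs' X hX).1 hyZ hx)
      exact fun x hx => hle hx
    have hd : ρ y v - v = ρ y t - t := by
      rw [hvdef, map_add, map_add, ha.1 y hy, hc y hyZ]; abel
    have h0 : ρ y v - v = 0 := by
      have hmem : ρ y v - v ∈ eigen ρ Z r M ⊓ (fixSpace ρ Z ⊔ s.sup (eigen ρ Z r)) := by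
        refine ⟨Submodule.sub_mem _ (rho_mem_eigen h hM.1 hyZ hv) hv, ?_⟩
        rw [SetLike.mem_coe, hd]
        exact Submodule.mem_sup_right (Submodule.sub_mem _ (hS t ht) ht)
      rwa [ih hs' M hM hMs', Submodule.mem_bot] at hmem
    by_contra hv0
    exact hyM (mem_of_fix_eigen h hM hyZ hv (fun e => hv0 (Submodule.mem_bot k |>.2 e))
      (sub_eq_zero.1 h0))

theorem finrank_sum_le [FiniteDimensional k V] (h : Setting ρ Z r) (s : Finset (Subgroup A))
    (hs : ∀ M ∈ s, IsMaxIn Z M) :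
    finrank k (fixSpace ρ Z) + ∑ M ∈ s, finrank k (eigen ρ Z r M) =
      finrank k ↥(fixSpace ρ Z ⊔ s.sup (eigen ρ Z r)) := by
  classical
  induction s using Finset.induction_on with
  | empty => rw [Finset.sum_empty, Finset.sup_empty, sup_bot_eq, add_zero]
  | insert M s hMs ih =>
    have hs' : ∀ X ∈ s, IsMaxIn Z X := fun X hX => hs X (Finset.mem_insert_of_mem hX)
    have h1 := Submodule.finrank_sup_add_finrank_inf_eq (eigen ρ Z r M)
      (fixSpace ρ Z ⊔ s.sup (eigen ρ Z r))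
    rw [eigen_inf_sup h s hs' M (hs M (Finset.mem_insert_self _ _)) hMs, finrank_bot] at h1
    rw [Finset.sum_insert hMs, Finset.sup_insert, sup_left_comm]
    have h2 := ih hs'
    omega

end Cfsg.Agent.FrobModule
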