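import Cfsg.Agent.FrobModule.Decomp
import Cfsg.Agent.Perm.Modules
import Mathlib

/-!
A module on which a fixed-point-freely acted nilpotent normal subgroup has no fixed vectors is
free over the acting group.
-/

set_option autoImplicit false
set_option linter.unusedSectionVars false

namespace Cfsg.Agent.FrobModule

open Module
open scoped Pointwise

universe u v w

variable {k : Type u} {A : Type w} [Field k] [Group A] [Finite A]
variable {V : Type v} [AddCommGroup V] [Module k V] [FiniteDimensional k V]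

/-- The span of the `H`-translates. -/
def hSpan (ρ : Representation k A V) (H : Subgroup A) (W : Submodule k V) : Submodule k V :=
  ⨆ h : H, W.map (ρ (h : A))

theorem hSpan_mono {ρ : Representation k A V} {H : Subgroup A} {W W' : Submodule k V}
    (hle : W ≤ W') : hSpan ρ H W ≤ hSpan ρ H W' :=
  iSup_mono fun _ => Submodule.map_mono hle

theorem map_hSpan_le {ρ : Representation k A V} {H : Subgroup A} {W : Submodule k V} {h : A}
    (hh : h ∈ H) : (hSpan ρ H W).map (ρ h) ≤ hSpan ρ H W := by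
  rw [hSpan, Submodule.map_iSup]
  refine iSup_le fun g => ?_
  rw [← Submodule.map_comp, ← Module.End.mul_eq_comp, ← map_mul]
  exact le_iSup (fun g : H => W.map (ρ (g : A))) (⟨h, hh⟩ * g)

variable {ρ : Representation k A V} {Z : Subgroup A} [Z.Normal] {r : ℕ} [hr : Fact r.Prime]

theorem map_eigen_le (a : A) (M : Subgroup A) :
    (eigen ρ Z r M).map (ρ a) ≤ eigen ρ Z r (MulAut.conj a • M) := by
  rintro _ ⟨v, hv, rfl⟩
  refine ⟨fun x hx => ?_, fun z hz hzM => ?_⟩
  · obtain ⟨m, hm, rfl⟩ := (Subgroup.mem_smul_pointwise_iff_exists _ _ _).1 hx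
    rw [MulAut.smul_def, MulAut.conj_apply, rho_mul, rho_mul, ← rho_mul ρ a⁻¹ a, inv_mul_cancel,
      map_one, Module.End.one_apply, hv.1 m hm]
  · have hz' : a⁻¹ * z * a ∈ Z := by
      have := (inferInstance : Z.Normal).conj_mem z hz a⁻¹
      rwa [inv_inv] at this
    have hzM' : a⁻¹ * z * a ∉ M := fun h => hzM <| by
      rw [Subgroup.mem_pointwise_smul_iff_inv_smul_mem]
      simpa [MulAut.smul_def, MulAut.conj_symm_apply, mul_assoc] using h
    have h0 := hv.2 _ hz' hzM'
    have h1 : ∀ i : ZMod r, (ρ z ^ i.val) (ρ a v) = ρ a ((ρ (a⁻¹ * z * a) ^ i.val) v) := by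
      intro i
      rw [← map_pow, ← map_pow, ← rho_mul, ← rho_mul]
      congr 2
      rw [show a⁻¹ * z * a = a⁻¹ * z * a⁻¹⁻¹ by rw [inv_inv], conj_pow, inv_inv, ← mul_assoc,
        ← mul_assoc, mul_inv_cancel, one_mul]
    rw [powSum_apply, Finset.sum_congr rfl fun i _ => h1 i, ← map_sum, ← powSum_apply, h0,
      map_zero]

theorem map_eigen (a : A) (M : Subgroup A) :
    (eigen ρ Z r M).map (ρ a) = eigen ρ Z r (MulAut.conj a • M) := by
  refine le_antisymm (map_eigen_le a M) fun v hv => ⟨ρ a⁻¹ v, ?_, ?_⟩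
  · have := map_eigen_le (ρ := ρ) (Z := Z) (r := r) a⁻¹ (MulAut.conj a • M) ⟨v, hv, rfl⟩
    rwa [← mul_smul, ← map_mul, inv_mul_cancel, map_one, one_smul] at this
  · rw [← rho_mul, mul_inv_cancel, map_one, Module.End.one_apply]

theorem isMaxIn_conj {M : Subgroup A} (hM : IsMaxIn Z M) (a : A) :
    IsMaxIn Z (MulAut.conj a • M) := by
  have hZ : MulAut.conj a • Z = Z := Subgroup.Normal.conj_smul_eq_self a Z
  refine ⟨?_, ?_, fun z hz hzM => ?_⟩
  · rw [← hZ]; exact Subgroup.pointwise_smul_le_pointwise_smul_iff.2 hM.1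
  · rw [← hZ]; exact fun e => hM.2.1 (smul_left_cancel _ e)
  · rw [← hZ] at hz
    obtain ⟨y, hy, rfl⟩ := (Subgroup.mem_smul_pointwise_iff_exists _ _ _).1 hz
    have hyM : y ∉ M := fun h => hzM ⟨y, h, rfl⟩
    have h1 := hM.2.2 y hy hyM
    refine le_antisymm ?_ ?_
    · refine sup_le ?_ (Subgroup.zpowers_le.2 (by rw [← hZ]; exact hz))
      rw [← hZ]; exact Subgroup.pointwise_smul_le_pointwise_smul_iff.2 hM.1
    · conv_lhs => rw [← hZ, ← h1, Subgroup.smul_sup]
      refine sup_le_sup le_rfl ?_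
      rintro _ ⟨x, ⟨n, rfl⟩, rfl⟩
      exact ⟨n, (map_zpow (MulDistribMulAction.toMonoidEnd _ _ (MulAut.conj a)) y n).symm⟩

/-- The orbit of one eigenspace is free. -/
theorem orbit_part (hs : Setting ρ Z r) {F H : Subgroup A} (hZF : Z ≤ F)
    (hfpf : ∀ h ∈ H, ∀ x ∈ F, h ≠ 1 → h * x * h⁻¹ = x → x = 1)
    {M : Subgroup A} (hM : IsMaxIn Z M) :
    ∃ W : Submodule k V, eigen ρ Z r M ≤ hSpan ρ H W ∧
      Nat.card {h : H // MulAut.conj (h : A) • M = M} * finrank k W ≤
        finrank k (eigen ρ Z r M) := by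
  classical
  set U := eigen ρ Z r M with hU
  by_cases hU0 : U = ⊥
  · refine ⟨⊥, by rw [hU0]; exact bot_le, by rw [finrank_bot, mul_zero]; exact Nat.zero_le _⟩
  obtain ⟨v₀, hv₀, hv₀0⟩ := U.exists_mem_ne_zero_of_ne_bot hU0
  obtain ⟨z₀, hz₀, hz₀M⟩ := SetLike.exists_of_lt (lt_of_le_of_ne hM.1 hM.2.1)
  let Stab : Subgroup A :=
    { carrier := {g | ∀ v ∈ U, ρ g v ∈ U ∧ ρ g⁻¹ v ∈ U}
      one_mem' := fun v hv => by simpa using hv
      mul_mem' := fun {a b} ha hb v hv =>
        ⟨by rw [rho_mul]; exact (ha _ (hb v hv).1).1,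
         by rw [mul_inv_rev, rho_mul]; exact (hb _ (ha v hv).2).2⟩
      inv_mem' := fun {a} ha v hv => ⟨(ha v hv).2, by rw [inv_inv]; exact (ha v hv).1⟩ }
  let f : Stab →* Module.End k U :=
    { toFun := fun g => (ρ (g : A)).restrict fun v hv => (g.2 v hv).1
      map_one' := LinearMap.ext fun v => Subtype.ext <| by simp
      map_mul' := fun a b => LinearMap.ext fun v => Subtype.ext <| by
        simp [LinearMap.restrict_apply] }
  have hf : ∀ (g : Stab) (v : U), ((f g v : U) : V) = ρ (g : A) v := fun g v => rfl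
  let F' : Stab →* (Module.End k U)ˣ := f.toHomUnits
  have hF : ∀ g, (F' g : Module.End k U) = f g := fun g => rfl
  have hZS : ∀ z ∈ Z, z ∈ Stab := fun z hz v hv =>
    ⟨rho_mem_eigen hs hM.1 hz hv, rho_mem_eigen hs hM.1 (inv_mem hz) hv⟩
  let H₁ : Subgroup H :=
    { carrier := {h | MulAut.conj (h : A) • M = M}
      one_mem' := show MulAut.conj ((1 : H) : A) • M = M by simp
      mul_mem' := fun {a b} (ha : MulAut.conj (a : A) • M = M) (hb : MulAut.conj (b : A) • M = M) =>
        show MulAut.conj ((a * b : H) : A) • M = M by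
          rw [Subgroup.coe_mul, map_mul, mul_smul, hb, ha]
      inv_mem' := fun {a} (ha : MulAut.conj (a : A) • M = M) =>
        show MulAut.conj ((a⁻¹ : H) : A) • M = M by
          rw [Subgroup.coe_inv, map_inv, inv_smul_eq_iff, ha] }
  have hHS : ∀ h : H₁, ((h : H) : A) ∈ Stab := fun h v hv => by
    constructor
    · have := map_eigen_le (ρ := ρ) (Z := Z) (r := r) ((h : H) : A) M ⟨v, hv, rfl⟩
      rwa [show MulAut.conj ((h : H) : A) • M = M from h.2] at this
    · have := map_eigen_le (ρ := ρ) (Z := Z) (r := r) (((h⁻¹ : H₁) : H) : A) M ⟨v, hv, rfl⟩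
      rwa [show MulAut.conj (((h⁻¹ : H₁) : H) : A) • M = M from (h⁻¹).2] at this
  let ι : H₁ →* Stab :=
    { toFun := fun h => ⟨((h : H) : A), hHS h⟩
      map_one' := rfl
      map_mul' := fun _ _ => rfl }
  set zS : Stab := ⟨z₀, hZS z₀ hz₀⟩ with hzS
  set zU := F' zS with hzU
  have hzr : zU ^ r = 1 := by
    refine Units.ext (LinearMap.ext fun v => Subtype.ext ?_)
    rw [hzU, ← map_pow, hF, hf, hzS, SubgroupClass.coe_pow, map_pow, hs.pow_eq z₀ hz₀]
    rfl
  have hfixU : ∀ v : U, (zU : Module.End k U) v = v → v = 0 := fun v hv => by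
    by_contra h0
    exact hz₀M (mem_of_fix_eigen hs hM hz₀ v.2 (fun e => h0 (Subtype.ext e))
      (congrArg Subtype.val hv))
  have hzord : orderOf zU = r := orderOf_eq_prime hzr fun e => by
    have := hfixU ⟨v₀, hv₀⟩ (by rw [e]; rfl)
    exact hv₀0 (congrArg Subtype.val this)
  have hinj : ∀ i j : ZMod r, zU ^ i.val = zU ^ j.val → i = j := fun i j e => by
    have := pow_eq_pow_iff_modEq.1 e
    rw [hzord, ← ZMod.natCast_eq_natCast_iff, ZMod.natCast_zmod_val, ZMod.natCast_zmod_val] at this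
    exact this
  have hmem : ∀ y ∈ Z, ∀ hy : y ∈ Stab, ∃ j : ZMod r, F' ⟨y, hy⟩ = zU ^ j.val := by
    let P : Subgroup A :=
      { carrier := {y | ∃ hy : y ∈ Stab, F' ⟨y, hy⟩ ∈ Subgroup.zpowers zU}
        one_mem' := ⟨one_mem _, by
          have : F' ⟨1, one_mem _⟩ = 1 := map_one F'
          rw [this]; exact one_mem _⟩
        mul_mem' := fun {a b} ⟨ha, ha'⟩ ⟨hb, hb'⟩ => ⟨mul_mem ha hb, by
          have : F' ⟨a * b, mul_mem ha hb⟩ = F' ⟨a, ha⟩ * F' ⟨b, hb⟩ := map_mul F' ⟨a, ha⟩ ⟨b, hb⟩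
          rw [this]; exact mul_mem ha' hb'⟩
        inv_mem' := fun {a} ⟨ha, ha'⟩ => ⟨inv_mem ha, by
          have : F' ⟨a⁻¹, inv_mem ha⟩ = (F' ⟨a, ha⟩)⁻¹ := map_inv F' ⟨a, ha⟩
          rw [this]; exact inv_mem ha'⟩ }
    have hMP : M ≤ P := fun m hm => ⟨hZS m (hM.1 hm), by
      have : F' ⟨m, hZS m (hM.1 hm)⟩ = 1 :=
        Units.ext (LinearMap.ext fun v => Subtype.ext (v.2.1 m hm))
      rw [this]; exact one_mem _⟩
    intro y hy hyS
    have hyP : y ∈ P := by
      have hle : M ⊔ Subgroup.zpowers z₀ ≤ P :=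
        sup_le hMP (Subgroup.zpowers_le.2 ⟨zS.2, Subgroup.mem_zpowers zU⟩)
      rw [hM.2.2 z₀ hz₀ hz₀M] at hle
      exact hle hy
    obtain ⟨_, hy'⟩ := hyP
    obtain ⟨n, hn⟩ := Subgroup.mem_zpowers_iff.1 hy'
    refine ⟨(n : ZMod r), hn.symm.trans ?_⟩
    rw [← zpow_natCast, ZMod.val_intCast, ← hzord, zpow_mod_orderOf]
  have hconj : ∀ h : H₁, ∃ j : ZMod r, F' (ι h) * zU * (F' (ι h))⁻¹ = zU ^ j.val := fun h => by
    obtain ⟨j, hj⟩ := hmem _ ((inferInstance : Z.Normal).conj_mem z₀ hz₀ ((h : H) : A))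
      (hZS _ ((inferInstance : Z.Normal).conj_mem z₀ hz₀ ((h : H) : A)))
    refine ⟨j, ?_⟩
    rw [hzU, ← map_inv, ← map_mul, ← map_mul, ← hzU, ← hj]
    rfl
  choose c hc using hconj
  let χ₀ : H₁ →* ZMod r :=
    { toFun := c
      map_one' := hinj _ _ <| by rw [← hc 1, map_one, map_one, one_mul, inv_one, mul_one,
        ZMod.val_one, pow_one]
      map_mul' := fun a b => hinj _ _ <| by
        rw [← hc (a * b), map_mul, map_mul,
          show F' (ι a) * F' (ι b) * zU * (F' (ι a) * F' (ι b))⁻¹ =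
            F' (ι a) * (F' (ι b) * zU * (F' (ι b))⁻¹) * (F' (ι a))⁻¹ by group,
          hc b, ← conj_pow, hc a, ← pow_mul, ZMod.val_mul]
        exact pow_eq_pow_mod _ hzr }
  let χ : H₁ →* (ZMod r)ˣ := χ₀.toHomUnits
  have hχ : Function.Injective χ := by
    rw [injective_iff_map_eq_one]
    intro h e
    have e' : c h = 1 := congrArg Units.val e
    by_contra hh1
    have hhA : ((h : H) : A) ≠ 1 := fun e => hh1 (Subtype.ext (Subtype.ext e))
    set g := ((h : H) : A) with hg
    have hgM : ∀ m ∈ M, g * m * g⁻¹ ∈ M := fun m hm => by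
      have : MulAut.conj g • M = M := h.2
      rw [← this]
      exact ⟨m, hm, rfl⟩
    have he := hc h
    rw [e', ZMod.val_one, pow_one, mul_inv_eq_iff_eq_mul] at he
    -- the commutator lies in `M`
    have hy : z₀⁻¹ * (g * z₀ * g⁻¹) ∈ Z :=
      mul_mem (inv_mem hz₀) ((inferInstance : Z.Normal).conj_mem z₀ hz₀ g)
    have hyS : F' ⟨_, hZS _ hy⟩ = 1 := by
      have : (⟨_, hZS _ hy⟩ : Stab) = zS⁻¹ * (ι h * zS * (ι h)⁻¹) := rfl
      rw [this, map_mul, map_inv, map_mul, map_mul, map_inv, ← hzU, he, mul_inv_cancel_right,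
        inv_mul_cancel]
    have hy1 : ρ (z₀⁻¹ * (g * z₀ * g⁻¹)) v₀ = v₀ := by
      have := congrArg (fun x : (Module.End k U)ˣ => ((((x : Module.End k U) ⟨v₀, hv₀⟩) : U) : V)) hyS
      simpa [hF, hf] using this
    have hyM := mem_of_fix_eigen hs hM hy hv₀ hv₀0 hy1
    haveI : Finite M := inferInstance
    let φ : M → M := fun m => ⟨(m : A)⁻¹ * (g * m * g⁻¹), mul_mem (inv_mem m.2) (hgM m m.2)⟩
    have key : ∀ x ∈ F, ∀ y ∈ F, x⁻¹ * (g * x * g⁻¹) = y⁻¹ * (g * y * g⁻¹) → x = y := by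
      intro x hx y hy e
      have h3 : g * (y * x⁻¹) * g⁻¹ = y * x⁻¹ := by
        have h4 : g * x * g⁻¹ = x * (y⁻¹ * (g * y * g⁻¹)) := by rw [← e]; group
        have h5 : g * (y * x⁻¹) * g⁻¹ = (g * y * g⁻¹) * (g * x * g⁻¹)⁻¹ := by group
        rw [h5, h4]
        group
      have := hfpf g (h : H).2 _ (mul_mem hy (inv_mem hx)) hhA h3
      exact (mul_inv_eq_one.1 this).symm
    have hφ : Function.Bijective φ := by
      rw [← Finite.injective_iff_bijective]
      intro a b e
      exact Subtype.ext (key _ (hZF (hM.1 a.2)) _ (hZF (hM.1 b.2)) (congrArg Subtype.val e))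
    obtain ⟨m, hm⟩ := hφ.2 ⟨_, hyM⟩
    have := key _ (hZF (hM.1 m.2)) _ (hZF hz₀) (congrArg Subtype.val hm)
    exact hz₀M (this ▸ m.2)
  haveI : IsCyclic H₁ := isCyclic_of_injective χ hχ
  obtain ⟨h₀, hh₀⟩ := IsCyclic.exists_generator (α := H₁)
  have hord : orderOf (χ h₀) = Nat.card H₁ := by
    rw [orderOf_injective χ hχ, orderOf_eq_card_of_forall_mem_zpowers hh₀]
  have hT : (F' (ι h₀) : Module.End k U) ^ orderOf (χ h₀) = 1 := by
    rw [← Units.val_pow_eq_pow_val, ← map_pow, ← map_pow, orderOf_injective χ hχ,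
      pow_orderOf_eq_one, map_one, map_one, Units.val_one]
  have hz' : (zU : Module.End k U) ^ r = 1 := by
    rw [← Units.val_pow_eq_pow_val, hzr, Units.val_one]
  have hcomm : (F' (ι h₀) : Module.End k U) * zU =
      (zU : Module.End k U) ^ ((χ h₀ : (ZMod r)ˣ) : ZMod r).val * F' (ι h₀) := by
    rw [← Units.val_pow_eq_pow_val, ← Units.val_mul, ← Units.val_mul]
    congr 1
    have := hc h₀
    rw [mul_inv_eq_iff_eq_mul] at this
    exact this
  obtain ⟨W, hW, hWd⟩ := cyclic_free hs.ne_zero _ _ hz' hfixU (χ h₀) hT hcomm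
  refine ⟨W.map U.subtype, ?_, ?_⟩
  · have h1 : (translates (F' (ι h₀) : Module.End k U) (orderOf (χ h₀)) W).map U.subtype = U := by
      rw [hW, Submodule.map_subtype_top]
    refine le_trans h1.ge ?_
    rw [translates, Submodule.map_iSup]
    refine iSup_le fun t => ?_
    have h2 : (W.map ((F' (ι h₀) : Module.End k U) ^ (t : ℕ))).map U.subtype =
        (W.map U.subtype).map (ρ ((((h₀ ^ (t : ℕ) : H₁) : H)) : A)) := by
      rw [← Submodule.map_comp, ← Submodule.map_comp, ← Units.val_pow_eq_pow_val, ← map_pow,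
        ← map_pow]
      rfl
    rw [h2]
    exact le_iSup (fun g : H => (W.map U.subtype).map (ρ (g : A))) ((h₀ ^ (t : ℕ) : H₁) : H)
  · have : Nat.card {h : H // MulAut.conj (h : A) • M = M} = Nat.card H₁ := rfl
    rw [this, Submodule.finrank_map_subtype_eq, ← hord]
    exact hWd

/-- All eigenspaces together are free. -/
theorem eigen_part (hs : Setting ρ Z r) {F H : Subgroup A} (hZF : Z ≤ F)
    (hfpf : ∀ h ∈ H, ∀ x ∈ F, h ≠ 1 → h * x * h⁻¹ = x → x = 1) :
    ∀ s : Finset (Subgroup A), (∀ M ∈ s, IsMaxIn Z M) →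
      (∀ h ∈ H, ∀ M ∈ s, MulAut.conj h • M ∈ s) →
      ∃ W : Submodule k V, s.sup (eigen ρ Z r) ≤ hSpan ρ H W ∧
        Nat.card H * finrank k W ≤ ∑ M ∈ s, finrank k (eigen ρ Z r M) := by
  classical
  intro s
  induction s using Finset.strongInduction with
  | H s ih =>
    intro hmax hinv
    rcases s.eq_empty_or_nonempty with rfl | ⟨M, hMs⟩
    · exact ⟨⊥, by simp, by simp⟩
    letI : MulAction H (Subgroup A) := MulAction.compHom _ (MulAut.conj.comp H.subtype)
    have hact : ∀ (h : H) (X : Subgroup A), h • X = MulAut.conj (h : A) • X := fun h X => rfl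
    obtain ⟨W₁, hW₁, hW₁d⟩ := orbit_part hs hZF hfpf (hmax M hMs)
    set O := s.filter (fun X => X ∈ MulAction.orbit H M) with hO
    set s' := s.filter (fun X => ¬ X ∈ MulAction.orbit H M) with hs'
    have hlt : s' ⊂ s := Finset.filter_ssubset.2 ⟨M, hMs, fun e => e (MulAction.mem_orbit_self M)⟩
    obtain ⟨W₂, hW₂, hW₂d⟩ := ih s' hlt (fun X hX => hmax X (Finset.mem_filter.1 hX).1)
      (fun h hh X hX => by
        obtain ⟨hXs, hXo⟩ := Finset.mem_filter.1 hX
        refine Finset.mem_filter.2 ⟨hinv h hh X hXs, fun e => hXo ?_⟩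
        obtain ⟨g, hg⟩ := MulAction.mem_orbit_iff.1 e
        refine ⟨(⟨h, hh⟩ : H)⁻¹ * g, ?_⟩
        show ((⟨h, hh⟩ : H)⁻¹ * g) • M = X
        rw [mul_smul, hg, inv_smul_eq_iff, hact])
    have hOcard : O.card = Nat.card (MulAction.orbit H M) := by
      rw [← Nat.card_eq_finsetCard]
      refine Nat.card_congr (Equiv.subtypeEquivRight fun X => ?_)
      rw [hO, Finset.mem_filter]
      refine ⟨And.right, fun hX => ⟨?_, hX⟩⟩
      obtain ⟨g, rfl⟩ := MulAction.mem_orbit_iff.1 hX
      exact hinv g g.2 M hMs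
    refine ⟨W₁ ⊔ W₂, Finset.sup_le fun X hX => ?_, ?_⟩
    · by_cases hXo : X ∈ MulAction.orbit H M
      · obtain ⟨g, rfl⟩ := MulAction.mem_orbit_iff.1 hXo
        rw [hact, ← map_eigen]
        exact (Submodule.map_mono (hW₁.trans (hSpan_mono le_sup_left))).trans (map_hSpan_le g.2)
      · exact (Finset.le_sup (Finset.mem_filter.2 ⟨hX, hXo⟩)).trans
          (hW₂.trans (hSpan_mono le_sup_right))
    have h1 := Submodule.finrank_add_le_finrank_add_finrank W₁ W₂
    have h2 : Nat.card {h : H // MulAut.conj (h : A) • M = M} * O.card = Nat.card H := by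
      rw [hOcard, Nat.card_coe_set_eq, ← MulAction.index_stabilizer H M]
      exact (MulAction.stabilizer H M).card_mul_index
    have h3 : ∑ X ∈ O, finrank k (eigen ρ Z r X) = O.card * finrank k (eigen ρ Z r M) := by
      rw [Finset.card_eq_sum_ones, Finset.sum_mul]
      refine Finset.sum_congr rfl fun X hX => ?_
      obtain ⟨g, rfl⟩ := MulAction.mem_orbit_iff.1 (Finset.mem_filter.1 hX).2
      rw [hact, ← map_eigen, one_mul]
      exact (Submodule.equivMapOfInjective _ (rho_injective ρ _) _).finrank_eq.symm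
    rw [← Finset.sum_filter_add_sum_filter_not s (fun X => X ∈ MulAction.orbit H M), ← hO, ← hs',
      h3]
    calc Nat.card H * finrank k ↥(W₁ ⊔ W₂) ≤ Nat.card H * (finrank k W₁ + finrank k W₂) :=
          Nat.mul_le_mul_left _ h1
      _ = O.card * (Nat.card {h : H // MulAut.conj (h : A) • M = M} * finrank k W₁) +
          Nat.card H * finrank k W₂ := by rw [← h2]; ring
      _ ≤ _ := Nat.add_le_add (Nat.mul_le_mul_left _ hW₁d) hW₂d

/-- An elementary abelian section for a prime different from the characteristic. -/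
theorem exists_setting {ρ : Representation k A V} {F : Subgroup A} [F.Normal]
    (hnil : Group.IsNilpotent F) [Nontrivial V]
    (hCF : ∀ v : V, (∀ f ∈ F, ρ f v = v) → v = 0) :
    ∃ (r : ℕ) (_ : Fact r.Prime) (Z : Subgroup A), Z.Normal ∧ Z ≤ F ∧ Setting ρ Z r ∧
      ∃ z ∈ Z, ρ z ≠ 1 := by
  classical
  set N : Subgroup A := ρ.ker ⊓ F with hN
  haveI : N.Normal := Subgroup.normal_inf_normal _ _
  let π := QuotientGroup.mk' N
  let ρ' : Representation k (A ⧸ N) V := QuotientGroup.lift N ρ inf_le_left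
  have hρ' : ∀ a, ρ' (π a) = ρ a := fun a => rfl
  set Fb : Subgroup (A ⧸ N) := F.map π with hFb
  haveI : Fb.Normal := (inferInstance : F.Normal).map π (QuotientGroup.mk'_surjective N)
  haveI : Group.IsNilpotent Fb :=
    Group.nilpotent_of_surjective (π.subgroupMap F) (π.subgroupMap_surjective F)
  obtain ⟨r, hr, hrk⟩ : ∃ r : ℕ, r.Prime ∧ (r : k) ≠ 0 ∧ r ∣ Nat.card Fb := by
    by_contra hc
    push Not at hc
    -- `Fb` would be a group fixing a vector
    suffices ∃ v : V, v ≠ 0 ∧ ∀ f ∈ F, ρ f v = v by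
      obtain ⟨v, hv, hfix⟩ := this
      exact hv (hCF v hfix)
    by_cases h1 : Nat.card Fb = 1
    · obtain ⟨v, hv⟩ := exists_ne (0 : V)
      refine ⟨v, hv, fun f hf => ?_⟩
      have : π f = 1 := by
        rw [← Subgroup.mem_bot]
        exact Subgroup.card_eq_one.1 h1 ▸ Subgroup.mem_map_of_mem π hf
      rw [← hρ', this, map_one, Module.End.one_apply]
    obtain ⟨p, hp, hpd⟩ := Nat.exists_prime_and_dvd h1
    have hchar : ∀ q : ℕ, q.Prime → q ∣ Nat.card Fb → (q : k) = 0 := fun q hq hqd => by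
      by_contra hne
      exact hc q hq hne hqd
    haveI : Fact p.Prime := ⟨hp⟩
    haveI : CharP k p := ringChar.of_eq (CharP.ringChar_of_prime_eq_zero hp (hchar p hp hpd))
    have hpg : IsPGroup p Fb := IsPGroup.of_card
      (Nat.eq_prime_pow_of_unique_prime_dvd Nat.card_pos.ne' (p := p) (fun {d} hd hdd => by
        have h3 := CharP.ringChar_of_prime_eq_zero hd (hchar d hd hdd)
        rw [← h3, ringChar.eq k p]))
    obtain ⟨v, -, hv0, hfix⟩ := PermLib.exists_fixed_vector (K := k) hpg (ρ'.comp Fb.subtype) ⊤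
      (fun _ _ _ => Submodule.mem_top) top_ne_bot
    exact ⟨v, hv0, fun f hf => hfix ⟨π f, Subgroup.mem_map_of_mem π hf⟩⟩
  obtain ⟨hrk, hrd⟩ := hrk
  haveI : Fact r.Prime := ⟨hr⟩
  obtain ⟨S⟩ := (inferInstance : Nonempty (Sylow r Fb))
  have hsyl : ∀ (q : ℕ) (_ : Fact q.Prime) (Q : Sylow q Fb), (Q : Subgroup Fb).Normal :=
    ((Group.isNilpotent_of_finite_tfae (G := Fb)).out 0 3).1 (inferInstance : Group.IsNilpotent Fb)
  haveI : (S : Subgroup Fb).Normal := hsyl r inferInstance S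
  haveI : (S : Subgroup Fb).Characteristic := Sylow.characteristic_of_normal S inferInstance
  set R : Subgroup (A ⧸ N) := (S : Subgroup Fb).map Fb.subtype with hR
  haveI : R.Normal := ConjAct.normal_of_characteristic_of_normal
  have hRp : IsPGroup r R := S.isPGroup'.map _
  have hR1 : r ∣ Nat.card R := by
    rw [hR, Subgroup.card_map_of_injective Fb.subtype_injective]
    exact S.dvd_card_of_dvd_card hrd
  haveI : Nontrivial R := by
    rw [← Finite.one_lt_card_iff_nontrivial]
    exact lt_of_lt_of_le hr.one_lt (Nat.le_of_dvd Nat.card_pos hR1)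
  haveI := hRp.center_nontrivial
  obtain ⟨n, hn⟩ := (IsPGroup.iff_card.1 (hRp.to_subgroup (Subgroup.center R)))
  obtain ⟨x, hx⟩ := exists_prime_orderOf_dvd_card' (G := Subgroup.center R) r (by
    have h1 : 1 < Nat.card (Subgroup.center R) := Finite.one_lt_card_iff_nontrivial.2 inferInstance
    rw [hn] at h1 ⊢
    exact dvd_pow_self r (by rintro rfl; simp at h1))
  let Zb : Subgroup (A ⧸ N) :=
    { carrier := {x | x ∈ R ∧ (∀ y ∈ R, Commute x y) ∧ x ^ r = 1}
      one_mem' := ⟨one_mem R, fun y _ => Commute.one_left y, one_pow r⟩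
      mul_mem' := fun {a b} ha hb => ⟨mul_mem ha.1 hb.1,
        fun y hy => (ha.2.1 y hy).mul_left (hb.2.1 y hy),
        by rw [(ha.2.1 b hb.1).mul_pow, ha.2.2, hb.2.2, one_mul]⟩
      inv_mem' := fun {a} ha => ⟨inv_mem ha.1, fun y hy => (ha.2.1 y hy).inv_left,
        by rw [inv_pow, ha.2.2, inv_one]⟩ }
  have hZb : ∀ x, x ∈ Zb → x ∈ R ∧ (∀ y ∈ R, Commute x y) ∧ x ^ r = 1 := fun x hx => hx
  haveI : Zb.Normal := ⟨fun a ha g => by
    obtain ⟨h1, h2, h3⟩ := hZb a ha
    refine ⟨(inferInstance : R.Normal).conj_mem a h1 g, fun y hy => ?_, ?_⟩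
    · have h4 := (h2 _ ((inferInstance : R.Normal).conj_mem y hy g⁻¹)).map
        (MulAut.conj g).toMonoidHom
      simpa [MulAut.conj_apply, mul_assoc] using h4
    · rw [conj_pow, h3]; group⟩
  refine ⟨r, inferInstance, Zb.comap π, inferInstance, ?_, ⟨hrk, ?_, ?_⟩, ?_⟩
  · intro z hz
    have h1 : π z ∈ Fb := by
      obtain ⟨y, -, hy⟩ := (hZb _ hz).1
      rw [← hy]; exact y.2
    obtain ⟨f, hf, hfz⟩ := h1
    have h2 : f⁻¹ * z ∈ N := QuotientGroup.eq.1 hfz
    have := mul_mem hf (inf_le_right (a := ρ.ker) h2)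
    rwa [mul_inv_cancel_left] at this
  · intro z hz
    have h1 := (hZb _ hz).2.2
    rw [← hρ', ← map_pow, h1, map_one]
  · intro z hz w hw
    have h1 := ((hZb _ hz).2.1 _ (hZb _ hw).1).map ρ'
    rwa [hρ', hρ'] at h1
  · obtain ⟨a, ha⟩ := QuotientGroup.mk'_surjective N (((x : R) : A ⧸ N))
    refine ⟨a, show π a ∈ Zb from ?_, fun e => ?_⟩
    · rw [show π a = ((x : R) : A ⧸ N) from ha]
      refine ⟨(x : R).2, fun y hy => ?_, ?_⟩
      · exact congrArg Subtype.val ((Subgroup.mem_center_iff.1 x.2 ⟨y, hy⟩).symm :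
          (x : R) * ⟨y, hy⟩ = ⟨y, hy⟩ * (x : R))
      · have := pow_orderOf_eq_one x
        rw [hx] at this
        exact congrArg (fun t : Subgroup.center R => (((t : R)) : A ⧸ N)) this
    · have haF : π a ∈ Fb := by
        rw [show π a = ((x : R) : A ⧸ N) from ha]
        obtain ⟨y, -, hy⟩ := (x : R).2
        rw [← hy]; exact y.2
      obtain ⟨f, hf, hfz⟩ := haF
      have hN1 : a ∈ N := ⟨e, by
        have := mul_mem hf (inf_le_right (a := ρ.ker) (QuotientGroup.eq.1 hfz))
        rwa [mul_inv_cancel_left] at this⟩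
      have : π a = 1 := (QuotientGroup.eq_one_iff a).2 hN1
      rw [show π a = ((x : R) : A ⧸ N) from ha] at this
      have hx1 : x = 1 := Subtype.ext (Subtype.ext this)
      rw [hx1, orderOf_one] at hx
      exact hr.one_lt.ne hx

/-- Freeness over the acting group. -/
theorem exists_free {F H : Subgroup A} [F.Normal] (hnil : Group.IsNilpotent F)
    (hfpf : ∀ h ∈ H, ∀ x ∈ F, h ≠ 1 → h * x * h⁻¹ = x → x = 1) :
    ∀ n : ℕ, ∀ {V : Type v} [AddCommGroup V] [Module k V] [FiniteDimensional k V]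
      (ρ : Representation k A V), finrank k V ≤ n →
      (∀ v : V, (∀ f ∈ F, ρ f v = v) → v = 0) →
      ∃ W : Submodule k V, hSpan ρ H W = ⊤ ∧ Nat.card H * finrank k W ≤ finrank k V := by
  classical
  intro n
  induction n with
  | zero =>
    intro V _ _ _ ρ hn _
    haveI : Subsingleton V := Module.finrank_zero_iff.1 (Nat.le_zero.1 hn)
    exact ⟨⊥, Subsingleton.elim _ _, by simp⟩
  | succ n ih =>
    intro V _ _ _ ρ hn hCF
    rcases subsingleton_or_nontrivial V with hV | hV
    · exact ⟨⊥, Subsingleton.elim _ _, by simp⟩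
    obtain ⟨r, hr, Z, hZn, hZF, hs, z, hz, hz1⟩ := exists_setting hnil hCF
    haveI := hr
    haveI := hZn
    set C := fixSpace ρ Z with hC
    have hCinv : ∀ a : A, ∀ v ∈ C, ρ a v ∈ C := fun a v hv x hx => by
      have h1 := hv _ (hZn.conj_mem x hx a⁻¹)
      rw [← rho_mul, show x * a = a * (a⁻¹ * x * a⁻¹⁻¹) by group, rho_mul, h1]
    let σ : Representation k A C :=
      { toFun := fun a => (ρ a).restrict (hCinv a)
        map_one' := LinearMap.ext fun v => Subtype.ext <| by simp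
        map_mul' := fun a b => LinearMap.ext fun v => Subtype.ext <| by
          simp [LinearMap.restrict_apply] }
    have hCne : C ≠ ⊤ := fun e => hz1 (LinearMap.ext fun v =>
      (e ▸ Submodule.mem_top : v ∈ C) z hz)
    have hClt := Submodule.finrank_lt hCne
    obtain ⟨W₀, hW₀, hW₀d⟩ := ih σ (by omega)
      fun v hv => Subtype.ext (hCF v fun f hf => congrArg Subtype.val (hv f hf))
    haveI : Fintype (Subgroup A) := Fintype.ofFinite _
    set s := Finset.univ.filter (IsMaxIn Z) with hsdef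
    have hsm : ∀ M ∈ s, IsMaxIn Z M := fun M hM => (Finset.mem_filter.1 hM).2
    obtain ⟨W₁, hW₁, hW₁d⟩ := eigen_part hs hZF hfpf s hsm fun h _ M hM =>
      Finset.mem_filter.2 ⟨Finset.mem_univ _, isMaxIn_conj (hsm M hM) h⟩
    refine ⟨W₀.map C.subtype ⊔ W₁, ?_, ?_⟩
    · have h1 := fixSpace_le_sup hs ⊥ bot_le
      rw [eq_top_iff]
      intro v _
      have hv : v ∈ fixSpace ρ ⊥ := fun x hx => by
        rw [Subgroup.mem_bot.1 hx, map_one, Module.End.one_apply]
      refine (sup_le ?_ (iSup₂_le fun M hM => ?_) : C ⊔ ⨆ (M : Subgroup A) (_ : IsMaxIn Z M),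
        eigen ρ Z r M ≤ _) (h1 hv)
      · refine le_trans ?_ (hSpan_mono le_sup_left)
        have h2 := congrArg (Submodule.map C.subtype) hW₀
        rw [Submodule.map_subtype_top, hSpan, Submodule.map_iSup] at h2
        refine le_trans h2.ge ?_
        refine iSup_le fun g => ?_
        rw [← Submodule.map_comp, show C.subtype.comp (σ (g : A)) = (ρ (g : A)).comp C.subtype
          from rfl, Submodule.map_comp]
        exact le_iSup (fun g : H => (W₀.map C.subtype).map (ρ (g : A))) g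
      · exact (Finset.le_sup (Finset.mem_filter.2 ⟨Finset.mem_univ _, hM⟩)).trans
          (hW₁.trans (hSpan_mono le_sup_right))
    · have h2 := Submodule.finrank_add_le_finrank_add_finrank (W₀.map C.subtype) W₁
      rw [Submodule.finrank_map_subtype_eq] at h2
      have h3 := finrank_sum_le hs s hsm
      rw [← hC] at h3
      have h4 := Submodule.finrank_le (C ⊔ s.sup (eigen ρ Z r))
      calc Nat.card H * finrank k ↥(W₀.map C.subtype ⊔ W₁)
          ≤ Nat.card H * (finrank k W₀ + finrank k W₁) := Nat.mul_le_mul_left _ h2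
        _ ≤ finrank k V := by rw [mul_add]; omega

theorem isInternal_of_hSpan [DecidableEq A] (ρ : Representation k A V) (H : Subgroup A)
    (W : Submodule k V) (hW : hSpan ρ H W = ⊤)
    (hd : Nat.card H * finrank k W ≤ finrank k V) :
    DirectSum.IsInternal fun h : H => W.map (ρ (h : A)) := by
  haveI : Fintype H := Fintype.ofFinite H
  let L := DirectSum.coeLinearMap fun h : H => W.map (ρ (h : A))
  have hsurj : Function.Surjective L := by
    rw [← LinearMap.range_eq_top, DirectSum.range_coeLinearMap]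
    exact hW
  have h1 : finrank k (DirectSum H fun h : H => ↥(W.map (ρ (h : A)))) = finrank k V := by
    refine le_antisymm ?_ ?_
    · rw [Module.finrank_directSum]
      refine (Finset.sum_le_sum fun h _ => Submodule.finrank_map_le _ W).trans ?_
      rw [Finset.sum_const, Finset.card_univ, smul_eq_mul, ← Nat.card_eq_fintype_card]
      exact hd
    · have := LinearMap.finrank_range_le L
      rwa [LinearMap.range_eq_top.2 hsurj, finrank_top] at this
  exact ⟨(LinearMap.injective_iff_surjective_of_finrank_eq_finrank h1).2 hsurj, hsurj⟩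

end Cfsg.Agent.FrobModule
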